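import Mathlib
import Cfsg.Agent.H36.SymSix

/-!
# Finite facts about the symmetric group of degree six
-/

set_option autoImplicit false

namespace Cfsg.Agent.H91.SymEight

open Equiv

abbrev P6 := Perm (Fin 6)

def pA : P6 := swap 0 1
def pB : P6 := swap 3 4
def pE : P6 := swap 2 5
def pU : P6 := swap 0 1 * swap 1 2
def pV : P6 := swap 3 4 * swap 4 5
/-- A double 3-cycle commuting with `pA * pB * pE`. -/
def pR : P6 := swap 0 3 * swap 3 2 * (swap 1 4 * swap 4 5)
/-- An element with square `pA * pB`. -/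
def pK : P6 := swap 0 3 * swap 3 1 * swap 1 4
/-- Exchanges `pA` and `pE`, fixing `pB`. -/
def pH : P6 := swap 0 2 * swap 1 5

theorem pK_sq : pK * pK = pA * pB := by decide
theorem pR_comm : pR * (pA * pB * pE) = pA * pB * pE * pR := by decide
theorem pH_A : pH * pA * pH⁻¹ = pE := by decide
theorem pH_B : pH * pB = pB * pH := by decide

theorem conj_B : ∀ x : P6, (x * x = 1 ∧ x ≠ 1 ∧ x * pU = pU * x ∧ x * pV * x⁻¹ = pV⁻¹) →
    x = pB ∨ x = pV * pB * pV⁻¹ ∨ x = pV⁻¹ * pB * pV := by decide +kernel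

theorem conj_A : ∀ x : P6, (x * x = 1 ∧ x ≠ 1 ∧ x * pV = pV * x ∧ x * pU * x⁻¹ = pU⁻¹) →
    x = pA ∨ x = pU * pA * pU⁻¹ ∨ x = pU⁻¹ * pA * pU := by decide +kernel

theorem eq_pE : ∀ q : P6, q * pB = pB * q → q * pA * q⁻¹ * pA = pA * (q * pA * q⁻¹) →
    q * pA * q⁻¹ ≠ pA → q * pA * q⁻¹ = pE := by decide +kernel

theorem eq_pEB : ∀ q : P6, q * pB = pB * q →
    q * (pA * pB) * q⁻¹ * (pA * pB) = pA * pB * (q * (pA * pB) * q⁻¹) →
    q * (pA * pB) * q⁻¹ ≠ pA * pB → q * (pA * pB) * q⁻¹ = pE * pB := by decide +kernel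

theorem comm_U : ∀ x : P6, x * pU = pU * x → x ^ 3 = 1 → x.support.card = 3 →
    x = pU ∨ x = pU⁻¹ ∨ x = pV ∨ x = pV⁻¹ := by decide +kernel

theorem ct_A : pA.cycleType = {2} := by decide +kernel
theorem ct_AB : (pA * pB).cycleType = {2, 2} := by decide +kernel
theorem ct_AE : (pA * pE).cycleType = {2, 2} := by decide +kernel
theorem ct_ABE : (pA * pB * pE).cycleType = {2, 2, 2} := by decide +kernel
theorem ct_B : pB.cycleType = {2} := by decide +kernel
theorem ct_U : pU.cycleType = {3} := by decide +kernel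
theorem ct_UV : (pU * pV).cycleType = {3, 3} := by decide +kernel
theorem ct_R : pR.cycleType = {3, 3} := by decide +kernel

/-- Involutions of degree six. -/
theorem invol_cases {x : P6} (hx : x * x = 1) (hx1 : x ≠ 1) :
    IsConj pA x ∨ IsConj (pA * pB) x ∨ IsConj (pA * pB * pE) x := by
  haveI : Fact (Nat.Prime 2) := ⟨Nat.prime_two⟩
  have ho : orderOf x = 2 := orderOf_eq_prime (by rw [pow_two, hx]) hx1
  obtain ⟨n, hn⟩ := Perm.cycleType_prime_order (ho.symm ▸ Nat.prime_two)
  rw [ho] at hn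
  have hs := Perm.sum_cycleType x
  have hle : x.support.card ≤ 6 := (Finset.card_le_univ _).trans (Fintype.card_fin 6).le
  rw [hn, Multiset.sum_replicate, smul_eq_mul] at hs
  rcases n with _ | _ | _ | n
  · exact Or.inl (Perm.isConj_iff_cycleType_eq.2 (by rw [hn, ct_A]; rfl))
  · exact Or.inr (Or.inl (Perm.isConj_iff_cycleType_eq.2 (by rw [hn, ct_AB]; rfl)))
  · exact Or.inr (Or.inr (Perm.isConj_iff_cycleType_eq.2 (by rw [hn, ct_ABE]; rfl)))
  · omega

/-- Elements of order three of degree six. -/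
theorem three_cases {x : P6} (hx : orderOf x = 3) : IsConj pU x ∨ IsConj (pU * pV) x := by
  by_cases h : x.IsThreeCycle
  · exact Or.inl (Perm.isConj_iff_cycleType_eq.2 (by rw [ct_U, h.cycleType]))
  · exact Or.inr (Perm.isConj_iff_cycleType_eq.2
      (by rw [ct_UV, H36.SymSix.cycleType_of_order_three hx h]))

/-- An automorphism normalising the images of two commuting independent elements of order three. -/
theorem exists_normalize {a b : P6} (ha : orderOf a = 3) (hb : orderOf b = 3) (hab : a * b = b * a)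
    (hsame : IsConj a b) (hne : b ≠ a) (hne' : b ≠ a⁻¹) :
    ∃ φ : MulAut P6, φ a = pU ∧ φ b = pV := by
  have aux : ∀ a b : P6, a.IsThreeCycle → b.IsThreeCycle → a * b = b * a → b ≠ a → b ≠ a⁻¹ →
      ∃ φ : MulAut P6, φ a = pU ∧ φ b = pV := by
    intro a b ha3 hb3 hab hne hne'
    obtain ⟨g, hg⟩ := isConj_iff.1 ((Perm.isConj_iff_cycleType_eq
      (σ := a) (τ := pU)).2 (by rw [ct_U, ha3.cycleType]))
    have hc : MulAut.conj g a = pU := hg
    have h3 : (MulAut.conj g b) ^ 3 = 1 := by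
      rw [← map_pow, ← hb3.orderOf, pow_orderOf_eq_one, map_one]
    have hcard : (MulAut.conj g b).support.card = 3 := by
      rw [MulAut.conj_apply, ← Perm.sum_cycleType, Perm.cycleType_conj, Perm.sum_cycleType]
      exact card_support_eq_three_iff.2 hb3
    have hcm : MulAut.conj g b * pU = pU * MulAut.conj g b := by
      rw [← hc, ← map_mul, ← map_mul, hab]
    rcases comm_U _ hcm h3 hcard with h | h | h | h
    · exact absurd ((MulAut.conj g).injective (h.trans hc.symm)) hne
    · rw [← hc, ← map_inv] at h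
      exact absurd ((MulAut.conj g).injective h) hne'
    · exact ⟨MulAut.conj g, hc, h⟩
    · refine ⟨MulAut.conj pB * MulAut.conj g, ?_, ?_⟩
      · rw [MulAut.mul_apply, hc]; decide
      · rw [MulAut.mul_apply, h]; decide
  by_cases h : a.IsThreeCycle
  · exact aux a b h (by rw [Perm.IsThreeCycle, ← Perm.isConj_iff_cycleType_eq.1 hsame]; exact h) hab
      hne hne'
  · obtain ⟨ψ, -, -, hψ⟩ := H36.SymSix.exists_outer
    have hconv : ∀ x : P6, orderOf x = 3 → ¬ x.IsThreeCycle → (ψ x).IsThreeCycle := by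
      intro x hx hx3
      by_contra hc
      have hc3 : IsConj (pU * pV) (ψ x) := Perm.isConj_iff_cycleType_eq.2
        (by rw [ct_UV, H36.SymSix.cycleType_of_order_three (by rw [MulEquiv.orderOf_eq]; exact hx) hc])
      have hu : ¬ (ψ pU).IsThreeCycle := hψ pU ct_U
      have hu3 : IsConj (pU * pV) (ψ pU) := Perm.isConj_iff_cycleType_eq.2
        (by rw [ct_UV, H36.SymSix.cycleType_of_order_three (by
          rw [MulEquiv.orderOf_eq]; exact (show pU.IsThreeCycle from ct_U).orderOf) hu])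
      obtain ⟨k, hk⟩ := isConj_iff.1 (hc3.symm.trans hu3)
      obtain ⟨k', rfl⟩ := ψ.surjective k
      rw [← map_inv, ← map_mul, ← map_mul, ψ.apply_eq_iff_eq] at hk
      apply hx3
      have : IsConj x pU := isConj_iff.2 ⟨k', hk⟩
      rw [Perm.IsThreeCycle, Perm.isConj_iff_cycleType_eq.1 this, ct_U]
    have hb' : ¬ b.IsThreeCycle := fun hb3 => h (by
      rw [Perm.IsThreeCycle, Perm.isConj_iff_cycleType_eq.1 hsame]; exact hb3)
    obtain ⟨φ, h1, h2⟩ := aux (ψ a) (ψ b) (hconv a ha h) (hconv b hb hb')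
      (by rw [← map_mul, ← map_mul, hab]) (fun e => hne (ψ.injective e))
      (fun e => hne' (ψ.injective (by rw [e, map_inv])))
    exact ⟨φ * ψ, h1, h2⟩

end Cfsg.Agent.H91.SymEight
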