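import Mathlib
import Cfsg.Agent.H34.SymEight.Data
import Cfsg.Agent.H63.CoxeterA
import Cfsg.Agent.H91.SymEight.Perm

/-!
# Splitting of the involution centraliser as a direct product with the symmetric group of degree six
-/

set_option autoImplicit false

namespace Cfsg.Agent.H91.SymEight

open Equiv Cfsg.Agent.H34.SymEight

variable {G : Type*} [Group G]

theorem s_comm_c (d : Data G) : Commute d.s d.c := d.comm _ _
theorem z_comm_c (d : Data G) : Commute d.z d.c := d.comm _ _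
theorem z'_comm_c (d : Data G) : Commute d.z' d.c := by
  show d.ι t5 * d.ι c5 = d.ι c5 * d.ι t5
  rw [← map_mul, ← map_mul, c5_comm]

/-- The second reflection, centralising `z`. -/
def s' (d : Data G) : G := d.ι (swap 0 1)

theorem s'_comm_c (d : Data G) : Commute (s' d) d.c := by
  show d.ι _ * d.ι _ = d.ι _ * d.ι _
  rw [← map_mul, ← map_mul]
  exact congrArg d.ι (by decide)

theorem iota_eq_one (d : Data G) {b : Perm (Fin 5)} (h : d.ι b = 1) : b = 1 :=
  (d.inj 1 b (by rw [map_one, one_mul, h])).2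

theorem iotaL_eq_one (d : Data G) {a : Perm (Fin 3)} (h : d.ιL a = 1) : a = 1 :=
  (d.inj a 1 (by rw [map_one, mul_one, h])).1

theorem iota_inj (d : Data G) : Function.Injective d.ι :=
  (injective_iff_map_eq_one _).2 fun _ => iota_eq_one d

theorem pair_inj (d : Data G) {a a' : Perm (Fin 3)} {b b' : Perm (Fin 5)}
    (h : d.ιL a * d.ι b = d.ιL a' * d.ι b') : a = a' ∧ b = b' := by
  have key : d.ιL (a'⁻¹ * a) * d.ι (b * b'⁻¹) = 1 := by
    rw [map_mul, map_mul, map_inv, map_inv, mul_assoc, ← mul_assoc (d.ιL a), h]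
    group
  obtain ⟨ha, hb⟩ := d.inj _ _ key
  exact ⟨(inv_mul_eq_one.1 ha).symm, mul_inv_eq_one.1 hb⟩

theorem c_sq (d : Data G) : d.c * d.c = 1 := by
  show d.ι c5 * d.ι c5 = 1
  rw [← map_mul, c5_sq, map_one]

theorem c_ne_one (d : Data G) : d.c ≠ 1 := fun h =>
  absurd (iota_eq_one d h) (by decide)

theorem mem_cent_D {d : Data G} {g : G} (hz : Commute g d.z) (hz' : Commute g d.z') :
    ∃ (i j : ℕ), g = d.z ^ i * d.z' ^ j ∨ g = d.z ^ i * d.z' ^ j * d.c := by
  obtain ⟨i, σ, rfl⟩ := d.mem_cz g hz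
  have hcm : σ * t5 = t5 * σ := by
    have h : d.ιL u3 ^ i * d.ι σ * d.ι t5 = d.ι t5 * (d.ιL u3 ^ i * d.ι σ) := hz'
    rw [← mul_assoc, ← ((d.comm u3 t5).pow_left i).eq, mul_assoc, mul_assoc] at h
    exact iota_inj d (by rw [map_mul, map_mul]; exact mul_left_cancel h)
  have : ∀ σ : Perm (Fin 5), σ * t5 = t5 * σ →
      σ = t5 ^ 0 ∨ σ = t5 ^ 1 ∨ σ = t5 ^ 2 ∨ σ = t5 ^ 0 * c5 ∨ σ = t5 ^ 1 * c5 ∨ σ = t5 ^ 2 * c5 := by
    decide +kernel
  have hA : ∀ j, d.ιL u3 ^ i * d.ι (t5 ^ j) = d.z ^ i * d.z' ^ j := fun j => by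
    rw [map_pow]; rfl
  have hB : ∀ j, d.ιL u3 ^ i * d.ι (t5 ^ j * c5) = d.z ^ i * d.z' ^ j * d.c := fun j => by
    rw [map_mul, ← mul_assoc, hA]; rfl
  rcases this σ hcm with rfl | rfl | rfl | rfl | rfl | rfl
  exacts [⟨i, 0, .inl (hA 0)⟩, ⟨i, 1, .inl (hA 1)⟩, ⟨i, 2, .inl (hA 2)⟩, ⟨i, 0, .inr (hB 0)⟩,
    ⟨i, 1, .inr (hB 1)⟩, ⟨i, 2, .inr (hB 2)⟩]

/-- A splitting of the centraliser of `c`. -/
structure Split (d : Data G) where
  /-- the projection -/
  pr : Subgroup.centralizer ({d.c} : Set G) →* P6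
  pr_c : pr ⟨d.c, Subgroup.mem_centralizer_singleton_iff.2 rfl⟩ = 1
  /-- the section -/
  sec : P6 →* G
  sec_comm : ∀ x, Commute (sec x) d.c
  pr_sec : ∀ x, pr ⟨sec x, Subgroup.mem_centralizer_singleton_iff.2 (sec_comm x).eq⟩ = x
  cases : ∀ g : Subgroup.centralizer ({d.c} : Set G), (g : G) = sec (pr g) ∨ (g : G) = sec (pr g) * d.c
  sec_B : sec pB = s' d
  s_cases : d.s = sec pA ∨ d.s = sec pA * d.c
  sec_U : sec pU = d.z
  sec_V : sec pV = d.z'

section build

variable {d : Data G} (π : Subgroup.centralizer ({d.c} : Set G) →* P6)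
  (hker : ∀ x, π x = 1 ↔ (x : G) = 1 ∨ (x : G) = d.c)

theorem eq_of_pr_eq (hker : ∀ x, π x = 1 ↔ (x : G) = 1 ∨ (x : G) = d.c)
    {x y : Subgroup.centralizer ({d.c} : Set G)} (h : π x = π y) :
    (x : G) = y ∨ (x : G) = y * d.c := by
  have h1 : π (y⁻¹ * x) = 1 := by rw [map_mul, map_inv, h, inv_mul_cancel]
  rcases (hker _).1 h1 with e | e
  · left
    simpa [inv_mul_eq_one, eq_comm] using e
  · right
    rw [Subgroup.coe_mul, Subgroup.coe_inv] at e
    calc (x : G) = y * ((y : G)⁻¹ * x) := by group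
      _ = _ := by rw [e]

/-- The centraliser as an element. -/
abbrev toC {g : G} (h : Commute g d.c) : Subgroup.centralizer ({d.c} : Set G) :=
  ⟨g, Subgroup.mem_centralizer_singleton_iff.2 h.eq⟩

end build

theorem exists_pr [Finite G] (d : Data G)
    (π : Subgroup.centralizer ({d.c} : Set G) →* P6) (hπ : Function.Surjective π)
    (hker : ∀ x, π x = 1 ↔ (x : G) = 1 ∨ (x : G) = d.c) :
    ∃ π' : Subgroup.centralizer ({d.c} : Set G) →* P6, Function.Surjective π' ∧
      (∀ x, π' x = 1 ↔ (x : G) = 1 ∨ (x : G) = d.c) ∧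
      π' (toC (z_comm_c d)) = pU ∧ π' (toC (z'_comm_c d)) = pV ∧
      π' (toC (s_comm_c d)) = pA ∧ π' (toC (s'_comm_c d)) = pB := by
  haveI : Fact (Nat.Prime 3) := ⟨Nat.prime_three⟩
  set Z := toC (z_comm_c d)
  set Z' := toC (z'_comm_c d)
  have hZ3 : Z ^ 3 = 1 := Subtype.ext (by show d.ιL u3 ^ 3 = 1; rw [← map_pow, u3_pow_three, map_one])
  have hZ'3 : Z' ^ 3 = 1 := Subtype.ext (by show d.ι t5 ^ 3 = 1; rw [← map_pow, t5_pow_three, map_one])
  have horder : ∀ x : Subgroup.centralizer ({d.c} : Set G), x ^ 3 = 1 → (x : G) ≠ 1 → π x ≠ 1 := by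
    intro x hx hx1 h
    rcases (hker x).1 h with e | e
    · exact hx1 e
    · have : d.c ^ 3 = 1 := by rw [← e, ← Subgroup.coe_pow, hx]; rfl
      rw [pow_succ, pow_two, c_sq, one_mul] at this
      exact c_ne_one d this
  have hz1 : (Z : G) ≠ 1 := fun h => u3_ne_one (iotaL_eq_one d h)
  have hz'1 : (Z' : G) ≠ 1 := fun h => t5_ne_one (iota_eq_one d h)
  have ha : orderOf (π Z) = 3 := orderOf_eq_prime (by rw [← map_pow, hZ3, map_one]) (horder Z hZ3 hz1)
  have hb : orderOf (π Z') = 3 :=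
    orderOf_eq_prime (by rw [← map_pow, hZ'3, map_one]) (horder Z' hZ'3 hz'1)
  have hcomm : π Z * π Z' = π Z' * π Z := by
    rw [← map_mul, ← map_mul]
    exact congrArg π (Subtype.ext (d.comm u3 t5).eq)
  have hq : Commute d.q d.c := d.q_c
  have hsame : IsConj (π Z) (π Z') := by
    refine isConj_iff.2 ⟨π (toC hq), ?_⟩
    rw [← map_inv, ← map_mul, ← map_mul]
    refine congrArg π (Subtype.ext ?_)
    show d.q * d.ιL u3 * d.q⁻¹ = d.ι t5
    rw [inv_eq_of_mul_eq_one_right d.q_sq, d.q_z]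
  have hz_z' : ∀ (a : Perm (Fin 3)) (b : Perm (Fin 5)), d.ιL a * d.ι b = 1 ∨ d.ιL a * d.ι b = d.c →
      a = 1 := by
    intro a b h
    rcases h with h | h
    · exact (d.inj a b h).1
    · exact (pair_inj d (a := a) (b := b) (a' := 1) (b' := c5) (by rw [map_one, one_mul]; exact h)).1
  have hne : π Z' ≠ π Z := by
    intro h
    have h1 : π (Z⁻¹ * Z') = 1 := by rw [map_mul, map_inv, h, inv_mul_cancel]
    have := hz_z' u3⁻¹ t5 (by
      have := (hker _).1 h1
      rwa [map_inv])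
    exact u3_ne_one (inv_eq_one.1 this)
  have hne' : π Z' ≠ (π Z)⁻¹ := by
    intro h
    have h1 : π (Z * Z') = 1 := by rw [map_mul, h, mul_inv_cancel]
    exact u3_ne_one (hz_z' u3 t5 ((hker _).1 h1))
  obtain ⟨φ, hφa, hφb⟩ := exists_normalize ha hb hcomm hsame hne hne'
  set π₁ := φ.toMonoidHom.comp π with hπ₁
  have hker₁ : ∀ x, π₁ x = 1 ↔ (x : G) = 1 ∨ (x : G) = d.c := fun x => by
    rw [← hker x]; exact map_eq_one_iff φ φ.injective
  have hπ₁s : Function.Surjective π₁ := φ.surjective.comp hπ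
  have hU : π₁ Z = pU := hφa
  have hV : π₁ Z' = pV := hφb
  set S := toC (s_comm_c d)
  set S' := toC (s'_comm_c d)
  have hS1 : π₁ S ≠ 1 := by
    intro h
    exact absurd (hz_z' w3 1 (by rw [map_one, mul_one]; exact (hker₁ S).1 h)) (by decide)
  have hS'1 : π₁ S' ≠ 1 := by
    intro h
    rcases (hker₁ S').1 h with e | e
    · exact absurd (iota_eq_one d e) (by decide)
    · exact absurd (iota_inj d e) (by decide)
  have hSsq : S * S = 1 := Subtype.ext (by show d.ιL w3 * d.ιL w3 = 1; rw [← map_mul, w3_sq, map_one])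
  have hS'sq : S' * S' = 1 := Subtype.ext (by
    show d.ι (swap 0 1) * d.ι (swap 0 1) = 1
    rw [← map_mul, swap_mul_self, map_one])
  have hSV : S * Z' = Z' * S := Subtype.ext (d.comm w3 t5).eq
  have hS'U : S' * Z = Z * S' := Subtype.ext (d.comm u3 _).symm.eq
  have hSU : S * Z * S⁻¹ = Z⁻¹ := Subtype.ext (by
    show d.ιL w3 * d.ιL u3 * (d.ιL w3)⁻¹ = (d.ιL u3)⁻¹
    rw [← map_inv, ← map_inv, ← map_mul, ← map_mul]
    exact congrArg d.ιL (by decide))
  have hS'V : S' * Z' * S'⁻¹ = Z'⁻¹ := Subtype.ext (by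
    show d.ι _ * d.ι t5 * (d.ι _)⁻¹ = (d.ι t5)⁻¹
    rw [← map_inv, ← map_inv, ← map_mul, ← map_mul]
    exact congrArg d.ι (by decide))
  have hA := conj_A (π₁ S) ⟨by rw [← map_mul, hSsq, map_one], hS1,
    by rw [← hV, ← map_mul, hSV, map_mul], by rw [← hU, ← map_inv, ← map_mul, ← map_mul, hSU, map_inv]⟩
  have hB := conj_B (π₁ S') ⟨by rw [← map_mul, hS'sq, map_one], hS'1,
    by rw [← hU, ← map_mul, hS'U, map_mul], by rw [← hV, ← map_inv, ← map_mul, ← map_mul, hS'V, map_inv]⟩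
  obtain ⟨ψA, hA1, hA2, hA3, hA4⟩ : ∃ ψ : MulAut P6, ψ (π₁ S) = pA ∧ ψ pU = pU ∧ ψ pV = pV ∧
      ∀ x, x * pU = pU * x → ψ x = x := by
    rcases hA with e | e | e
    · exact ⟨1, by rw [MulAut.one_apply, e], rfl, rfl, fun _ _ => rfl⟩
    · refine ⟨MulAut.conj pU⁻¹, ?_, by decide, by decide, fun x hx => ?_⟩
      · rw [MulAut.conj_apply, e]; group
      · rw [MulAut.conj_apply, inv_inv, mul_assoc, hx, inv_mul_cancel_left]
    · refine ⟨MulAut.conj pU, ?_, by decide, by decide, fun x hx => ?_⟩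
      · rw [MulAut.conj_apply, e]; group
      · rw [MulAut.conj_apply, ← hx, mul_inv_cancel_right]
  obtain ⟨ψB, hB1, hB2, hB3, hB4⟩ : ∃ ψ : MulAut P6, ψ (π₁ S') = pB ∧ ψ pU = pU ∧ ψ pV = pV ∧
      ψ pA = pA := by
    rcases hB with e | e | e
    · exact ⟨1, by rw [MulAut.one_apply, e], rfl, rfl, rfl⟩
    · refine ⟨MulAut.conj pV⁻¹, ?_, by decide, by decide, by decide⟩
      rw [MulAut.conj_apply, e]; group
    · refine ⟨MulAut.conj pV, ?_, by decide, by decide, by decide⟩
      rw [MulAut.conj_apply, e]; group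
  have hS'ψ : ψA (π₁ S') = π₁ S' := hA4 _ (by rw [← hU, ← map_mul, hS'U, map_mul])
  refine ⟨(ψB * ψA).toMonoidHom.comp π₁, (ψB * ψA).surjective.comp hπ₁s, fun x => ?_, ?_, ?_, ?_, ?_⟩
  · rw [← hker₁ x]; exact map_eq_one_iff _ (ψB * ψA).injective
  · show ψB (ψA (π₁ Z)) = pU
    rw [hU, hA2, hB2]
  · show ψB (ψA (π₁ Z')) = pV
    rw [hV, hA3, hB3]
  · show ψB (ψA (π₁ S)) = pA
    rw [hA1, hB4]
  · show ψB (ψA (π₁ S')) = pB
    rw [hS'ψ, hB1]

theorem pairs_conj : ∀ i j : Fin 5, (i : ℕ) + 1 < j →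
    ∃ q : P6, q * pA = swap i.castSucc i.succ * q ∧ q * pB = swap j.castSucc j.succ * q := by
  decide +kernel

theorem swap_conj : ∀ i : Fin 5, ∃ q : P6, q * pA = swap i.castSucc i.succ * q := by decide +kernel

theorem exists_split [Finite G] (d : Data G)
    (π₀ : Subgroup.centralizer ({d.c} : Set G) →* P6) (hπ₀ : Function.Surjective π₀)
    (hker₀ : ∀ x, π₀ x = 1 ↔ (x : G) = 1 ∨ (x : G) = d.c) : Nonempty (Split d) := by
  obtain ⟨π, hπ, hker, hU, hV, hA, hB⟩ := exists_pr d π₀ hπ₀ hker₀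
  have hcc : ∀ x : Subgroup.centralizer ({d.c} : Set G), (x : G) * d.c = d.c * x := fun x =>
    Subgroup.mem_centralizer_singleton_iff.1 x.2
  set S := toC (s_comm_c d)
  set S' := toC (s'_comm_c d)
  have hSS' : Commute (S : G) S' := d.comm _ _
  have hSsq : (S : G) * S = 1 := by show d.ιL w3 * d.ιL w3 = 1; rw [← map_mul, w3_sq, map_one]
  have hcC : Commute d.c d.c := Commute.refl _
  -- lifts of transpositions
  have lift_form : ∀ (x : Subgroup.centralizer ({d.c} : Set G)) (q : P6) (T : Subgroup.centralizer ({d.c} : Set G)),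
      q * π T = π x * q → ∃ g : Subgroup.centralizer ({d.c} : Set G), π g = q ∧
        ((x : G) = g * T * g⁻¹ ∨ (x : G) = g * T * g⁻¹ * d.c) := by
    intro x q T h
    obtain ⟨g, rfl⟩ := hπ q
    refine ⟨g, rfl, ?_⟩
    exact eq_of_pr_eq π hker (x := x) (y := g * T * g⁻¹)
      (by rw [map_mul, map_mul, map_inv, h, mul_inv_cancel_right])
  have invol : ∀ (x : Subgroup.centralizer ({d.c} : Set G)) (i : Fin 5),
      π x = swap i.castSucc i.succ → x * x = 1 := by
    intro x i hx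
    obtain ⟨q, hq⟩ := swap_conj i
    obtain ⟨g, -, e⟩ := lift_form x q S (by rw [hA, hx]; exact hq)
    apply Subtype.ext
    show (x : G) * x = 1
    have h1 : ((g : G) * S * (g : G)⁻¹) * (g * S * (g : G)⁻¹) = 1 := by
      calc _ = (g : G) * (S * S) * (g : G)⁻¹ := by group
        _ = 1 := by rw [hSsq]; group
    rcases e with e | e
    · rw [e]; exact h1
    · have hcom : Commute d.c ((g : G) * S * (g : G)⁻¹) := (hcc (g * S * g⁻¹)).symm
      simp only [Subgroup.coe_inv] at e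
      rw [e, ← pow_two, hcom.symm.mul_pow, pow_two, h1, one_mul, pow_two, c_sq]
  have disj : ∀ (x y : Subgroup.centralizer ({d.c} : Set G)) (i j : Fin 5), (i : ℕ) + 1 < j →
      π x = swap i.castSucc i.succ → π y = swap j.castSucc j.succ → x * y = y * x := by
    intro x y i j hij hx hy
    obtain ⟨q, hq1, hq2⟩ := pairs_conj i j hij
    obtain ⟨g, hg, ex⟩ := lift_form x q S (by rw [hA, hx]; exact hq1)
    have ey := eq_of_pr_eq π hker (x := y) (y := g * S' * g⁻¹)
      (by rw [map_mul, map_mul, map_inv, hg, hB, hq2, hy, mul_inv_cancel_right])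
    apply Subtype.ext
    show Commute (x : G) y
    have h0 : Commute ((g : G) * S * (g : G)⁻¹) (g * S' * (g : G)⁻¹) :=
      (Commute.conj_iff _).2 hSS'
    have h1 : Commute ((g : G) * S * (g : G)⁻¹) d.c := hcc (g * S * g⁻¹)
    have h2 : Commute ((g : G) * S' * (g : G)⁻¹) d.c := hcc (g * S' * g⁻¹)
    rcases ex with ex | ex <;> rcases ey with ey | ey <;> rw [ex] <;> simp only [Subgroup.coe_mul, Subgroup.coe_inv] at ey <;> rw [ey]
    · exact h0
    · exact h0.mul_right h1
    · exact h0.mul_left h2.symm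
    · exact (h0.mul_right h1).mul_left (h2.symm.mul_right hcC)
  -- adjusting a neighbour
  have adjust : ∀ (a : Subgroup.centralizer ({d.c} : Set G)) (i j : Fin 5),
      π a = swap i.castSucc i.succ → ((i : ℕ) + 1 = j ∨ (j : ℕ) + 1 = i) →
      ∃ b : Subgroup.centralizer ({d.c} : Set G), π b = swap j.castSucc j.succ ∧ (a * b) ^ 3 = 1 := by
    intro a i j ha hij
    obtain ⟨b, hb⟩ := hπ (swap j.castSucc j.succ)
    have h3 : π ((a * b) ^ 3) = 1 := by
      rw [map_pow, map_mul, ha, hb]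
      have := H63.adjacent_swaps_isLiftable 5 i j
      rw [H63.coxeterA_apply] at this
      rw [if_neg (fun h => by subst h; omega), if_pos (by omega)] at this
      exact this
    rcases (hker _).1 h3 with e | e
    · exact ⟨b, hb, Subtype.ext e⟩
    · refine ⟨b * toC hcC, ?_, ?_⟩
      · rw [map_mul, hb, (hker (toC hcC)).2 (Or.inr rfl), mul_one]
      · apply Subtype.ext
        rw [Subgroup.coe_pow] at e ⊢
        show ((a : G) * (b * d.c)) ^ 3 = 1
        have hcm : Commute ((a : G) * b) d.c := hcc (a * b)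
        rw [← mul_assoc, hcm.mul_pow, ← Subgroup.coe_mul, e, pow_succ d.c 2, pow_two, c_sq, one_mul,
          c_sq]
  obtain ⟨t2, h2, e32⟩ := adjust S' 3 2 (by rw [hB]; decide) (by decide)
  obtain ⟨t1, h1, e21⟩ := adjust t2 2 1 h2 (by decide)
  obtain ⟨t0, h0, e10⟩ := adjust t1 1 0 h1 (by decide)
  obtain ⟨t4, h4, e34⟩ := adjust S' 3 4 (by rw [hB]; decide) (by decide)
  let t : Fin 5 → Subgroup.centralizer ({d.c} : Set G) := ![t0, t1, t2, S', t4]
  have ht : ∀ i, π (t i) = swap i.castSucc i.succ := by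
    intro i
    fin_cases i
    · exact h0
    · exact h1
    · exact h2
    · exact hB.trans (by decide)
    · exact h4
  have flip : ∀ (i j : Fin 5), (t i * t j) ^ 3 = 1 → (t j * t i) ^ 3 = 1 := by
    intro i j h
    have h' : ((t i * t j) ^ 3)⁻¹ = 1 := by rw [h, inv_one]
    rwa [← inv_pow, mul_inv_rev, inv_eq_of_mul_eq_one_right (invol _ i (ht i)),
      inv_eq_of_mul_eq_one_right (invol _ j (ht j))] at h'
  have succ3 : ∀ i j : Fin 5, (i : ℕ) + 1 = j → (t i * t j) ^ 3 = 1 := by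
    intro i j hij
    fin_cases i <;> fin_cases j <;> first
      | (simp at hij; done)
      | exact flip 1 0 e10
      | exact flip 2 1 e21
      | exact flip 3 2 e32
      | exact e34
  have hlift : (CoxeterMatrix.A 5).IsLiftable t := by
    intro i j
    rw [H63.coxeterA_apply]
    by_cases hij : i = j
    · rw [if_pos hij, pow_one, hij, invol _ j (ht j)]
    rw [if_neg hij]
    by_cases h3 : (j : ℕ) + 1 = i ∨ (i : ℕ) + 1 = j
    · rw [if_pos h3]
      rcases h3 with h | h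
      · exact flip j i (succ3 j i h)
      · exact succ3 i j h
    rw [if_neg h3]
    have hc : t i * t j = t j * t i := by
      rcases Nat.lt_or_ge ((i : ℕ) + 1) j with h | h
      · exact disj _ _ i j h (ht i) (ht j)
      · have : (j : ℕ) + 1 < i := by
          have : (i : ℕ) ≠ j := fun e => hij (Fin.ext e)
          omega
        exact (disj _ _ j i this (ht j) (ht i)).symm
    rw [pow_two, mul_assoc, ← mul_assoc (t j), ← hc, mul_assoc, invol _ j (ht j), mul_one,
      invol _ i (ht i)]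
  obtain ⟨cs, hcs⟩ := H63.exists_coxeterSystem_perm 5
  let σ : P6 →* Subgroup.centralizer ({d.c} : Set G) := cs.lift ⟨t, hlift⟩
  have hσ : ∀ i, σ (swap i.castSucc i.succ) = t i := fun i => by
    rw [← hcs i]; exact CoxeterSystem.lift_apply_simple cs hlift i
  have hπσ : π.comp σ = MonoidHom.id P6 := by
    refine cs.ext_simple fun i => ?_
    rw [hcs i, MonoidHom.comp_apply, hσ, ht]; rfl
  have hπσ' : ∀ x, π (σ x) = x := fun x => DFunLike.congr_fun hπσ x
  have cases_ : ∀ g : Subgroup.centralizer ({d.c} : Set G),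
      (g : G) = σ (π g) ∨ (g : G) = σ (π g) * d.c := fun g =>
    eq_of_pr_eq π hker (hπσ' (π g)).symm
  have three : ∀ (Z : Subgroup.centralizer ({d.c} : Set G)) (x : P6), π Z = x → (Z : G) ^ 3 = 1 →
      x ^ 3 = 1 → (σ x : G) = Z := by
    intro Z x hZ hZ3 hx3
    subst hZ
    rcases cases_ Z with e | e
    · exact e.symm
    · exfalso
      have hcm : Commute (σ (π Z) : G) d.c := hcc _
      rw [e, hcm.mul_pow, ← Subgroup.coe_pow, ← map_pow, hx3, map_one, OneMemClass.coe_one, one_mul,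
        pow_succ, pow_two, c_sq, one_mul] at hZ3
      exact c_ne_one d hZ3
  exact ⟨{ pr := π
           pr_c := (hker _).2 (Or.inr rfl)
           sec := (Subgroup.subtype _).comp σ
           sec_comm := fun x => hcc (σ x)
           pr_sec := fun x => hπσ' x
           cases := cases_
           sec_B := by
             show ((σ pB) : G) = s' d
             rw [show pB = swap (3 : Fin 5).castSucc (3 : Fin 5).succ from by decide, hσ]
             rfl
           s_cases := by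
             have := cases_ S
             rwa [hA] at this
           sec_U := three _ _ hU (by show d.ιL u3 ^ 3 = 1; rw [← map_pow, u3_pow_three, map_one]) (by decide)
           sec_V := three _ _ hV (by show d.ι t5 ^ 3 = 1; rw [← map_pow, t5_pow_three, map_one]) (by decide) }⟩

end Cfsg.Agent.H91.SymEight
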