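import Mathlib
import Cfsg.Agent.H91.SymEight.Section

/-!
# The class of the involution `c` inside its centraliser
-/

set_option autoImplicit false

namespace Cfsg.Agent.H91.SymEight

open Equiv Cfsg.Agent.H34.SymEight

variable {G : Type*} [Group G]

/-- The product homomorphism onto the normaliser of `z`. -/
def psi (d : Data G) : Perm (Fin 3) × Perm (Fin 5) →* G :=
  MonoidHom.noncommCoprod d.ιL d.ι d.comm

theorem psi_apply (d : Data G) (a : Perm (Fin 3)) (b : Perm (Fin 5)) :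
    psi d (a, b) = d.ιL a * d.ι b := rfl

theorem psi_injective (d : Data G) : Function.Injective (psi d) :=
  (injective_iff_map_eq_one _).2 fun x h => Prod.ext_iff.2 (d.inj x.1 x.2 h)

theorem z_mem_D (d : Data G) : d.z ∈ d.D :=
  Subgroup.subset_closure (Set.mem_insert d.z {d.z'})

theorem z'_mem_D (d : Data G) : d.z' ∈ d.D :=
  Subgroup.subset_closure (Set.mem_insert_of_mem d.z (Set.mem_singleton d.z'))

theorem D_eq_map (d : Data G) :
    d.D = ((Subgroup.zpowers u3).prod (Subgroup.zpowers t5)).map (psi d) := by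
  refine le_antisymm ((Subgroup.closure_le _).2 ?_) ?_
  · rintro x (rfl | rfl)
    · exact ⟨(u3, 1), ⟨Subgroup.mem_zpowers _, one_mem _⟩, by rw [psi_apply, map_one, mul_one]; rfl⟩
    · exact ⟨(1, t5), ⟨one_mem _, Subgroup.mem_zpowers _⟩, by rw [psi_apply, map_one, one_mul]; rfl⟩
  · rintro _ ⟨⟨a, b⟩, ⟨⟨i, rfl⟩, ⟨j, rfl⟩⟩, rfl⟩
    rw [psi_apply, map_zpow, map_zpow]
    exact mul_mem (zpow_mem (z_mem_D d) i) (zpow_mem (z'_mem_D d) j)

theorem card_D (d : Data G) : Nat.card d.D = 9 := by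
  haveI : Fact (Nat.Prime 3) := ⟨Nat.prime_three⟩
  rw [D_eq_map, Subgroup.card_map_of_injective (psi_injective d),
    Nat.card_congr (Subgroup.prodEquiv (Subgroup.zpowers u3) (Subgroup.zpowers t5)).toEquiv, Nat.card_prod, Nat.card_zpowers, Nat.card_zpowers,
    orderOf_eq_prime u3_pow_three u3_ne_one, orderOf_eq_prime t5_pow_three t5_ne_one]

theorem z_comm_z' (d : Data G) : Commute d.z d.z' := d.comm _ _

/-- The element `z * z'`. -/
def y (d : Data G) : G := d.z * d.z'

theorem y_mem_D (d : Data G) : y d ∈ d.D :=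
  mul_mem (z_mem_D d) (z'_mem_D d)

theorem y_ne_one (d : Data G) : y d ≠ 1 := fun h => u3_ne_one (d.inj u3 t5 h).1

theorem y_cube (d : Data G) : y d ^ 3 = 1 := by
  rw [y, (z_comm_z' d).mul_pow]
  show d.ιL u3 ^ 3 * d.ι t5 ^ 3 = 1
  rw [← map_pow, ← map_pow, u3_pow_three, t5_pow_three, map_one, map_one, one_mul]

theorem mem_D_of_cube {d : Data G} {x : G} (hx : x ^ 3 = 1) (h2 : x * x ∈ d.D) : x ∈ d.D := by
  have e : x = (x * x) * (x * x) := by
    calc x = x * x ^ 3 := by rw [hx, mul_one]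
      _ = (x * x) * (x * x) := by simp only [pow_succ, pow_zero, one_mul, mul_assoc]
  rw [e]; exact mul_mem h2 h2

namespace Split

variable {d : Data G} (sp : Split d)

include sp

/-- The element of the centraliser given by the section. -/
abbrev el (x : P6) : Subgroup.centralizer ({d.c} : Set G) :=
  ⟨sp.sec x, Subgroup.mem_centralizer_singleton_iff.2 (sp.sec_comm x).eq⟩

theorem sec_inj : Function.Injective sp.sec := by
  intro a b h
  have e' : sp.el a = sp.el b := Subtype.ext h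
  exact (sp.pr_sec a).symm.trans ((congrArg sp.pr e').trans (sp.pr_sec b))

theorem sec_ne_c (x : P6) : sp.sec x ≠ d.c := by
  intro h
  have hx : x = 1 := by
    rw [← sp.pr_sec x, ← sp.pr_c]
    exact congrArg sp.pr (Subtype.ext h)
  rw [hx, map_one] at h
  exact c_ne_one d h.symm

theorem exists_cases {g : G} (hg : Commute g d.c) :
    ∃ q : P6, g = sp.sec q ∨ g = sp.sec q * d.c :=
  ⟨_, sp.cases ⟨g, Subgroup.mem_centralizer_singleton_iff.2 hg.eq⟩⟩

theorem conj_sec {g : G} {q : P6} (h : g = sp.sec q ∨ g = sp.sec q * d.c) (x : P6) :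
    g * sp.sec x * g⁻¹ = sp.sec (q * x * q⁻¹) := by
  rcases h with rfl | rfl
  · simp only [map_mul, map_inv]
  · rw [mul_inv_rev, mul_assoc (sp.sec q), ← (sp.sec_comm x).eq, map_mul, map_mul, map_inv]
    group

theorem comm_sec {g : G} {q : P6} (h : g = sp.sec q ∨ g = sp.sec q * d.c) {x : P6}
    (hx : Commute g (sp.sec x)) : q * x = x * q := by
  have h1 := sp.conj_sec h x
  rw [hx.eq, mul_inv_cancel_right] at h1
  have := sp.sec_inj h1
  exact (eq_mul_inv_iff_mul_eq.1 this).symm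

theorem three_eq_sec {x : G} (hx : Commute x d.c) (h3 : x ^ 3 = 1) :
    ∃ q : P6, q ^ 3 = 1 ∧ x = sp.sec q := by
  obtain ⟨q, hq⟩ := sp.exists_cases hx
  rcases hq with e | e
  · exact ⟨q, sp.sec_inj (by rw [map_pow, ← e, h3, map_one]), e⟩
  · exfalso
    rw [e, (sp.sec_comm q).mul_pow, pow_succ d.c 2, pow_two, c_sq, one_mul, ← map_pow] at h3
    exact sp.sec_ne_c (q ^ 3) (mul_right_cancel (h3.trans (c_sq d).symm))

theorem not_square (k : G) : k * k ≠ d.c := by
  intro h
  have hk : Commute k d.c := by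
    rw [← h]; exact (Commute.refl k).mul_right (Commute.refl k)
  obtain ⟨q, e | e⟩ := sp.exists_cases hk
  · rw [e, ← map_mul] at h
    exact sp.sec_ne_c _ h
  · rw [e, ← pow_two, (sp.sec_comm q).mul_pow, pow_two d.c, c_sq, mul_one, ← map_pow] at h
    exact sp.sec_ne_c _ h

omit sp

/-- Being a conjugate of `c`. -/
def Fused (d : Data G) (w : G) : Prop := ∃ h : G, w = h * d.c * h⁻¹

theorem fused_conj {w : G} (hw : Fused d w) (g : G) : Fused d (g * w * g⁻¹) := by
  obtain ⟨h, rfl⟩ := hw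
  exact ⟨g * h, by group⟩

include sp in
theorem not_fused_square {k w : G} (hk : k * k = w) : ¬ Fused d w := by
  rintro ⟨h, rfl⟩
  refine sp.not_square (h⁻¹ * k * h) ?_
  calc h⁻¹ * k * h * (h⁻¹ * k * h) = h⁻¹ * (k * k) * h := by group
    _ = d.c := by rw [hk]; group

theorem exists_partner (x : P6) (h3 : x ^ 3 = 1) (h1 : x ≠ 1) :
    ∃ x2 : P6, x2 ^ 3 = 1 ∧ x2 ≠ 1 ∧ x2 * x = x * x2 ∧ x2 ≠ x ∧ x2 ≠ x⁻¹ := by
  haveI : Fact (Nat.Prime 3) := ⟨Nat.prime_three⟩
  have key : ∀ a b : P6, IsConj a x → b ^ 3 = 1 → b ≠ 1 → b * a = a * b → b ≠ a → b ≠ a⁻¹ →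
      ∃ x2 : P6, x2 ^ 3 = 1 ∧ x2 ≠ 1 ∧ x2 * x = x * x2 ∧ x2 ≠ x ∧ x2 ≠ x⁻¹ := by
    intro a b hconj hb3 hb1 hba hne hne'
    obtain ⟨g, rfl⟩ := isConj_iff.1 hconj
    refine ⟨MulAut.conj g b, by rw [← map_pow, hb3, map_one], (map_ne_one_iff _ (MulAut.conj g).injective).2 hb1,
      ?_, fun e => hne ((MulAut.conj g).injective e), fun e => hne' ((MulAut.conj g).injective ?_)⟩
    · rw [← MulAut.conj_apply g a, ← map_mul, ← map_mul, hba]
    · rw [map_inv]; exact e
  rcases three_cases (orderOf_eq_prime h3 h1) with h | h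
  · exact key _ pV h (by decide) (by decide) (by decide) (by decide) (by decide)
  · exact key _ pU h (by decide) (by decide) (by decide) (by decide) (by decide)

set_option maxHeartbeats 800000 in
theorem eq_c_of_comm_y [Finite G] (sp : Split d) {w : G} (hw : Fused d w) (hy : Commute w (y d)) :
    w = d.c := by
  obtain ⟨h, rfl⟩ := hw
  classical
  set x := h⁻¹ * y d * h with hx
  have hy' : y d = h * x * h⁻¹ := by rw [hx]; group
  have hxc : Commute x d.c := by
    have e := (Commute.conj_iff h⁻¹).2 hy.symm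
    rw [inv_inv] at e
    have e2 : h⁻¹ * (h * d.c * h⁻¹) * h = d.c := by group
    rwa [← hx, e2] at e
  have hx3 : x ^ 3 = 1 := by
    have : x = h⁻¹ * y d * h⁻¹⁻¹ := by rw [inv_inv]
    rw [this, conj_pow, y_cube]; group
  obtain ⟨q, hq3, hq⟩ := sp.three_eq_sec hxc hx3
  have hq1 : q ≠ 1 := by
    rintro rfl
    apply y_ne_one d
    rw [hy', hq, map_one]; group
  obtain ⟨q2, h23, h21, hcom, hne, hne'⟩ := exists_partner q hq3 hq1
  set x2 := h * sp.sec q2 * h⁻¹ with hx2
  have hx23 : x2 ^ 3 = 1 := by rw [hx2, conj_pow, ← map_pow, h23, map_one]; group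
  have hx2y : Commute x2 (y d) := by
    rw [hx2, hy']
    refine (Commute.conj_iff h).2 ?_
    rw [hq]
    show sp.sec q2 * sp.sec q = sp.sec q * sp.sec q2
    rw [← map_mul, ← map_mul, hcom]
  have hx2D : x2 ∈ d.D :=
    mem_D_of_cube hx23 (d.cy_sq x2 (Subgroup.mem_centralizer_singleton_iff.2 hx2y.eq))
  set S : Subgroup G := Subgroup.closure {y d, x2} with hS
  have hSD : S ≤ d.D := (Subgroup.closure_le _).2 (Set.insert_subset (y_mem_D d)
    (Set.singleton_subset_iff.2 hx2D))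
  haveI : Fact (Nat.Prime 3) := ⟨Nat.prime_three⟩
  have hSeq : S = d.D := by
    refine Subgroup.eq_of_le_of_card_ge hSD ?_
    rw [card_D]
    have hdvd : Nat.card S ∣ 3 ^ 2 := by
      have := Subgroup.card_dvd_of_le hSD
      rwa [card_D] at this
    obtain ⟨k, hk2, hk⟩ := (Nat.dvd_prime_pow Nat.prime_three).1 hdvd
    have hy3 : orderOf (y d) = 3 := orderOf_eq_prime (y_cube d) (y_ne_one d)
    by_contra hlt
    have hk1 : k ≤ 1 := by
      by_contra hk1
      have : k = 2 := by omega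
      rw [hk, this] at hlt
      norm_num at hlt
    have hle : Nat.card S ≤ Nat.card (Subgroup.zpowers (y d)) := by
      rw [hk, Nat.card_zpowers, hy3]
      exact le_trans (Nat.pow_le_pow_right (by norm_num) hk1) (by norm_num)
    have hzS : Subgroup.zpowers (y d) = S := Subgroup.eq_of_le_of_card_ge
      (Subgroup.zpowers_le.2 (Subgroup.subset_closure (Set.mem_insert _ _))) hle
    have hmem : x2 ∈ Subgroup.zpowers (y d) := by
      rw [hzS]; exact Subgroup.subset_closure (Set.mem_insert_of_mem _ rfl)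
    have hfin : IsOfFinOrder (y d) := isOfFinOrder_of_finite _
    rw [hfin.mem_zpowers_iff_mem_range_orderOf, hy3] at hmem
    simp only [Finset.mem_image, Finset.mem_range] at hmem
    obtain ⟨i, hi, he⟩ := hmem
    have hconv : ∀ i : ℕ, (y d) ^ i = h * sp.sec (q ^ i) * h⁻¹ := fun i => by
      rw [hy', hq, conj_pow, map_pow]
    rw [hconv, hx2] at he
    have he' : q ^ i = q2 := sp.sec_inj (mul_left_cancel (mul_right_cancel he))
    interval_cases i
    · exact h21 (by rw [← he', pow_zero])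
    · exact hne (by rw [← he', pow_one])
    · apply hne'
      rw [← he']
      exact eq_inv_of_mul_eq_one_left (by rw [← pow_succ, hq3])
  have hwx2 : Commute (h * d.c * h⁻¹) x2 := by
    rw [hx2]
    exact (Commute.conj_iff h).2 (sp.sec_comm q2).symm
  have hDle : d.D ≤ Subgroup.centralizer ({h * d.c * h⁻¹} : Set G) := by
    rw [← hSeq, hS, Subgroup.closure_le]
    rintro x (rfl | rfl)
    · exact Subgroup.mem_centralizer_singleton_iff.2 hy.symm.eq
    · exact Subgroup.mem_centralizer_singleton_iff.2 hwx2.symm.eq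
  have hcz : ∀ v ∈ d.D, Commute (h * d.c * h⁻¹) v := fun v hv =>
    (show Commute v (h * d.c * h⁻¹) from Subgroup.mem_centralizer_singleton_iff.1 (hDle hv)).symm
  obtain ⟨i, j, e⟩ := mem_cent_D (hcz _ (z_mem_D d)) (hcz _ (z'_mem_D d))
  have hmem : d.z ^ i * d.z' ^ j ∈ d.D :=
    mul_mem (pow_mem (z_mem_D d) i) (pow_mem (z'_mem_D d) j)
  set m := d.z ^ i * d.z' ^ j with hm
  have hsq : (h * d.c * h⁻¹) ^ 2 = 1 := by rw [conj_pow, pow_two, c_sq]; group
  have hne1 : h * d.c * h⁻¹ ≠ 1 := by rw [ne_eq, conj_eq_one_iff]; exact c_ne_one d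
  have hm9 : m ^ 9 = 1 := by
    have := pow_card_eq_one' (G := d.D) (x := ⟨m, hmem⟩)
    rw [card_D] at this
    exact congrArg Subtype.val this
  have hm1 : m ^ 2 = 1 → m = 1 := by
    intro h2
    rw [show (9 : ℕ) = 2 * 4 + 1 from rfl, pow_succ, pow_mul, h2, one_pow, one_mul] at hm9
    exact hm9
  rcases e with e | e
  · exact absurd (e.trans (hm1 (e ▸ hsq))) hne1
  · have hmc : Commute m d.c := ((z_comm_c d).pow_left i).mul_left ((z'_comm_c d).pow_left j)
    rw [e] at hsq ⊢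
    rw [hmc.mul_pow, pow_two d.c, c_sq, mul_one] at hsq
    rw [hm1 hsq, one_mul]

/-- The element exchanging `c` and `s'`. -/
def gx (d : Data G) : G := d.ι (swap 0 3 * swap 1 4)

theorem gx_c (d : Data G) : gx d * d.c * (gx d)⁻¹ = s' d := by
  show d.ι _ * d.ι c5 * (d.ι _)⁻¹ = d.ι (swap 0 1)
  rw [← map_inv, ← map_mul, ← map_mul]
  exact congrArg d.ι (by decide)

theorem gx_s' (d : Data G) : gx d * s' d * (gx d)⁻¹ = d.c := by
  show d.ι _ * d.ι (swap 0 1) * (d.ι _)⁻¹ = d.ι c5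
  rw [← map_inv, ← map_mul, ← map_mul]
  exact congrArg d.ι (by decide)

theorem gx_s (d : Data G) : gx d * d.s * (gx d)⁻¹ = d.s := by
  have h : Commute (gx d) d.s := (d.comm _ _).symm
  rw [h.eq, mul_inv_cancel_right]

theorem not_fused_triple [Finite G] (sp : Split d) (e : G)
    (he : e = sp.sec (pA * pB * pE) ∨ e = sp.sec (pA * pB * pE) * d.c) : ¬ Fused d e := by
  intro hf
  obtain ⟨k, hk⟩ := isConj_iff.1 ((Perm.isConj_iff_cycleType_eq (σ := pU * pV) (τ := pR)).2
    (by rw [ct_UV, ct_R]))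
  have hR : sp.sec pR = sp.sec k * y d * (sp.sec k)⁻¹ := by
    rw [← hk, y, ← sp.sec_U, ← sp.sec_V]; simp only [map_mul, map_inv]
  have hcom : Commute e (sp.sec pR) := by
    have h0 : Commute (sp.sec (pA * pB * pE)) (sp.sec pR) := by
      show _ * _ = _ * _
      rw [← map_mul, ← map_mul, pR_comm]
    rcases he with rfl | rfl
    · exact h0
    · exact h0.mul_left (sp.sec_comm pR).symm
  have h1 : Commute ((sp.sec k)⁻¹ * e * ((sp.sec k)⁻¹)⁻¹) (y d) := by
    have := (Commute.conj_iff (sp.sec k)⁻¹).2 hcom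
    rw [hR] at this
    simpa [mul_assoc] using this
  have h2 := sp.eq_c_of_comm_y (fused_conj hf _) h1
  have h3 : e = d.c := by
    calc e = sp.sec k * ((sp.sec k)⁻¹ * e * ((sp.sec k)⁻¹)⁻¹) * (sp.sec k)⁻¹ := by group
      _ = d.c := by rw [h2, (sp.sec_comm k).eq, mul_inv_cancel_right]
  rcases he with rfl | rfl
  · exact sp.sec_ne_c _ h3
  · have h4 : sp.sec (pA * pB * pE) = sp.sec 1 := by
      rw [map_one]; exact mul_eq_right.1 h3
    exact absurd (sp.sec_inj h4) (by decide)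

theorem key [Finite G] (sp : Split d) :
    d.s = sp.sec pA ∧ ¬ Fused d (sp.sec (pA * pE) * d.c) := by
  set g := gx d
  have hgB : g * sp.sec pB * g⁻¹ = d.c := by rw [sp.sec_B]; exact gx_s' d
  have hgc : g * d.c * g⁻¹ = sp.sec pB := by rw [sp.sec_B]; exact gx_c d
  set h' := g * sp.sec pH * g⁻¹ with hh'
  have hh'c : Commute h' d.c := by
    rw [← hgB]
    refine (Commute.conj_iff g).2 ?_
    show _ * _ = _ * _
    rw [← map_mul, ← map_mul, pH_B]
  have hh'B : Commute h' (sp.sec pB) := by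
    rw [← hgc]
    exact (Commute.conj_iff g).2 (sp.sec_comm pH)
  obtain ⟨q, hq⟩ := sp.exists_cases hh'c
  have hqB := sp.comm_sec hq hh'B
  have hgE : g * sp.sec pE * g⁻¹ = h' * (g * sp.sec pA * g⁻¹) * h'⁻¹ := by
    rw [← pH_A, map_mul, map_mul, map_inv, hh']; group
  have hAEcomm : Commute (g * sp.sec pA * g⁻¹) (g * sp.sec pE * g⁻¹) := by
    refine (Commute.conj_iff g).2 ?_
    show _ * _ = _ * _
    rw [← map_mul, ← map_mul]
    exact congrArg sp.sec (by decide)
  have hAEne : g * sp.sec pE * g⁻¹ ≠ g * sp.sec pA * g⁻¹ := fun h =>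
    absurd (sp.sec_inj (mul_left_cancel (mul_right_cancel h))) (by decide)
  have hT : g * sp.sec (pA * pB * pE) * g⁻¹ =
      (g * sp.sec pA * g⁻¹) * (g * sp.sec pB * g⁻¹) * (g * sp.sec pE * g⁻¹) := by
    rw [map_mul, map_mul]; group
  have hnT := sp.not_fused_triple _ (Or.inl rfl)
  have hnT' : ¬ Fused d (g * sp.sec (pA * pB * pE) * g⁻¹) := fun hf => hnT (by
    have := fused_conj hf g⁻¹
    simpa [mul_assoc] using this)
  have cA : ∀ x, Commute d.c (sp.sec x) := fun x => (sp.sec_comm x).symm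
  rcases sp.s_cases with e | e
  · refine ⟨e, ?_⟩
    have hgA : g * sp.sec pA * g⁻¹ = sp.sec pA := by rw [← e]; exact gx_s d
    rw [hgA] at hgE hAEcomm hAEne hT
    rw [sp.conj_sec hq] at hgE
    have hE : q * pA * q⁻¹ = pE := by
      refine eq_pE q hqB ?_ ?_
      · apply sp.sec_inj
        rw [map_mul sp.sec (q * pA * q⁻¹), map_mul sp.sec pA, ← hgE]
        exact hAEcomm.symm.eq
      · intro h
        rw [h] at hgE
        exact hAEne hgE
    rw [hE] at hgE
    rw [hgE, hgB, mul_assoc (sp.sec pA) d.c, (cA pE).eq, ← mul_assoc (sp.sec pA),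
      ← map_mul sp.sec pA pE] at hT
    rwa [hT] at hnT'
  · exfalso
    have e' : sp.sec pA = d.s * d.c := by rw [e, mul_assoc, c_sq, mul_one]
    have hgA : g * sp.sec pA * g⁻¹ = sp.sec (pA * pB) * d.c := by
      calc g * sp.sec pA * g⁻¹ = (g * d.s * g⁻¹) * (g * d.c * g⁻¹) := by rw [e']; group
        _ = sp.sec pA * d.c * sp.sec pB := by rw [gx_s, hgc, e]
        _ = _ := by rw [mul_assoc, (cA pB).eq, ← mul_assoc, ← map_mul]
    rw [hgA] at hgE hAEcomm hAEne hT
    have hgE' : g * sp.sec pE * g⁻¹ = sp.sec (q * (pA * pB) * q⁻¹) * d.c := by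
      rw [hgE, ← sp.conj_sec hq, ← mul_assoc h', mul_assoc _ d.c, ← hh'c.inv_left.eq,
        ← mul_assoc]
    rw [hgE'] at hAEcomm hAEne hT
    have hE : q * (pA * pB) * q⁻¹ = pE * pB := by
      refine eq_pEB q hqB ?_ ?_
      · apply sp.sec_inj
        have h2 := hAEcomm.symm.eq
        rw [mul_assoc, ← mul_assoc d.c, (cA _).eq, mul_assoc _ d.c, c_sq, mul_one,
          mul_assoc (sp.sec (pA * pB)), ← mul_assoc d.c, (cA _).eq, mul_assoc _ d.c, c_sq, mul_one] at h2
        rw [map_mul sp.sec (q * (pA * pB) * q⁻¹), map_mul sp.sec (pA * pB) (q * (pA * pB) * q⁻¹)]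
        exact h2
      · exact fun h => hAEne (by rw [h])
    rw [hE, hgB, mul_assoc (sp.sec (pA * pB)) d.c, c_sq, mul_one, ← mul_assoc, ← map_mul,
      show pA * pB * (pE * pB) = pA * pE from by decide] at hT
    rw [hT] at hnT'
    apply hnT'
    obtain ⟨k, hk⟩ := isConj_iff.1 ((Perm.isConj_iff_cycleType_eq (σ := pB) (τ := pA)).2
      (by rw [ct_A, ct_B]))
    have hfA : Fused d (sp.sec pA) := by
      rw [← hk, map_mul, map_mul, map_inv, sp.sec_B, ← gx_c d]
      exact fused_conj ⟨gx d, rfl⟩ _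
    have hfAB : Fused d (sp.sec (pA * pB) * d.c) := hgA ▸ fused_conj hfA g
    obtain ⟨k2, hk2⟩ := isConj_iff.1 ((Perm.isConj_iff_cycleType_eq (σ := pA * pB) (τ := pA * pE)).2
      (by rw [ct_AB, ct_AE]))
    have h5 : sp.sec (pA * pE) * d.c = sp.sec k2 * (sp.sec (pA * pB) * d.c) * (sp.sec k2)⁻¹ := by
      rw [mul_assoc (sp.sec k2), mul_assoc (sp.sec (pA * pB)), (cA k2).inv_right.eq, ← hk2]
      simp only [map_mul, map_inv, mul_assoc]
    rw [h5]
    exact fused_conj hfAB _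

/-- The conjugates of `c` commuting with `c`. -/
theorem fused_cases [Finite G] (sp : Split d) {w : G} (hw : Fused d w) (hc : Commute w d.c) :
    w = d.c ∨ ∃ q : P6, w = sp.sec q := by
  obtain ⟨x, hx | hx⟩ := sp.exists_cases hc
  · exact Or.inr ⟨x, hx⟩
  by_cases hx1 : x = 1
  · exact Or.inl (by rw [hx, hx1, map_one, one_mul])
  exfalso
  have hxx : x * x = 1 := by
    obtain ⟨h, e⟩ := hw
    have h2 : w ^ 2 = 1 := by rw [e, conj_pow, pow_two, c_sq]; group
    rw [hx, (sp.sec_comm x).mul_pow, pow_two d.c, c_sq, mul_one, pow_two, ← map_mul] at h2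
    exact sp.sec_inj (h2.trans (map_one sp.sec).symm)
  have move : ∀ a k : P6, k * a * k⁻¹ = x → Fused d (sp.sec a * d.c) := by
    intro a k hk
    have := fused_conj hw (sp.sec k)⁻¹
    rw [hx, ← hk, map_mul, map_mul, map_inv, inv_inv] at this
    have e : (sp.sec k)⁻¹ * (sp.sec k * sp.sec a * (sp.sec k)⁻¹ * d.c) * sp.sec k = sp.sec a * d.c := by
      rw [← mul_assoc (sp.sec k)⁻¹, mul_assoc _ d.c, ← (sp.sec_comm k).eq]; group
    rwa [e] at this
  have conv : ∀ a b k : P6, k * a * k⁻¹ = b → Fused d (sp.sec a * d.c) → Fused d (sp.sec b * d.c) := by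
    intro a b k hk hf
    have := fused_conj hf (sp.sec k)
    rwa [mul_assoc (sp.sec k), mul_assoc (sp.sec a), ← ((sp.sec_comm k).inv_left).eq, ← mul_assoc (sp.sec a),
      ← mul_assoc, ← mul_assoc, ← map_inv, ← map_mul, ← map_mul, hk] at this
  rcases invol_cases hxx hx1 with h | h | h <;> obtain ⟨k, hk⟩ := isConj_iff.1 h
  · have hfA := move pA k hk
    obtain ⟨k', hk'⟩ := isConj_iff.1 ((Perm.isConj_iff_cycleType_eq (σ := pA) (τ := pB)).2
      (by rw [ct_A, ct_B]))
    have hfB := conv pA pB k' hk' hfA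
    rw [sp.sec_B] at hfB
    refine sp.not_fused_square (k := d.ι (swap 0 3 * swap 3 1 * swap 1 4)) ?_ hfB
    show d.ι _ * d.ι _ = d.ι (swap 0 1) * d.ι c5
    rw [← map_mul, ← map_mul]
    exact congrArg d.ι (by decide)
  · have hfAB := move _ k hk
    obtain ⟨k', hk'⟩ := isConj_iff.1 ((Perm.isConj_iff_cycleType_eq (σ := pA * pB) (τ := pA * pE)).2
      (by rw [ct_AB, ct_AE]))
    exact (sp.key).2 (conv _ _ k' hk' hfAB)
  · exact sp.not_fused_triple _ (Or.inr rfl) (move _ k hk)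

theorem fused_s [Finite G] (sp : Split d) : Fused d d.s := by
  obtain ⟨k, hk⟩ := isConj_iff.1 ((Perm.isConj_iff_cycleType_eq (σ := pB) (τ := pA)).2
    (by rw [ct_A, ct_B]))
  rw [(sp.key).1, ← hk, map_mul, map_mul, map_inv, sp.sec_B, ← gx_c d]
  exact fused_conj ⟨gx d, rfl⟩ _

theorem fused_s' (d : Data G) : Fused d (s' d) := ⟨gx d, (gx_c d).symm⟩

end Split

end Cfsg.Agent.H91.SymEight
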