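import Mathlib
import Cfsg.Agent.H91.SymEight.Fusion

/-!
# A linear character of order two by transfer
-/

set_option autoImplicit false

namespace Cfsg.Agent.H91.SymEight

open Equiv Cfsg.Agent.H34.SymEight

variable {G : Type*} [Group G]

theorem hom_eq_sign {n : ℕ} (f : Perm (Fin n) →* ℤˣ) {a b : Fin n} (hab : a ≠ b)
    (h : f (swap a b) = -1) (σ : Perm (Fin n)) : f σ = Perm.sign σ := by
  induction σ using Perm.swap_induction_on with
  | one => rw [map_one, map_one]
  | swap_mul g x y hxy ih =>
    obtain ⟨k, hk⟩ := isConj_iff.1 (Perm.isConj_swap hab hxy)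
    rw [map_mul, map_mul, ih, Perm.sign_swap hxy, ← hk, map_mul, map_mul, h, map_inv,
      mul_inv_cancel_comm]

namespace Split

variable {d : Data G} (sp : Split d)

open scoped Classical in
/-- The projection onto the central factor. -/
noncomputable def phi : Subgroup.centralizer ({d.c} : Set G) →* ℤˣ :=
  MonoidHom.mk' (fun g => if (g : G) = sp.sec (sp.pr g) then 1 else -1) (by
    intro a b
    have hne : ∀ x, sp.sec x * d.c ≠ sp.sec x := fun x h => c_ne_one d (mul_eq_left.1 h)
    simp only [Subgroup.coe_mul, map_mul]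
    rcases sp.cases a with ha | ha <;> rcases sp.cases b with hb | hb <;> rw [ha, hb]
    · simp
    · have h1 : sp.sec (sp.pr a) * (sp.sec (sp.pr b) * d.c) ≠ sp.sec (sp.pr a) * sp.sec (sp.pr b) :=
        fun h => hne _ (mul_left_cancel h)
      rw [if_neg h1, if_pos rfl, if_neg (hne _), one_mul]
    · have h1 : sp.sec (sp.pr a) * d.c * sp.sec (sp.pr b) ≠ sp.sec (sp.pr a) * sp.sec (sp.pr b) :=
        fun h => c_ne_one d (mul_eq_left.1 (mul_right_cancel h))
      rw [if_neg h1, if_neg (hne _), if_pos rfl, mul_one]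
    · have h1 : sp.sec (sp.pr a) * d.c * (sp.sec (sp.pr b) * d.c) =
          sp.sec (sp.pr a) * sp.sec (sp.pr b) := by
        rw [mul_assoc, ← mul_assoc d.c, ← (sp.sec_comm _).eq, mul_assoc _ d.c, c_sq, mul_one]
      rw [if_pos h1, if_neg (hne _), if_neg (hne _)]
      norm_num)

open scoped Classical in
theorem phi_c : sp.phi ⟨d.c, Subgroup.mem_centralizer_singleton_iff.2 rfl⟩ = -1 := by
  show (if d.c = sp.sec (sp.pr _) then (1 : ℤˣ) else -1) = -1
  rw [if_neg]
  intro h
  exact sp.sec_ne_c _ h.symm

open scoped Classical in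
theorem phi_sec (x : P6) (h : sp.sec x ∈ Subgroup.centralizer ({d.c} : Set G)) :
    sp.phi ⟨sp.sec x, h⟩ = 1 := by
  show (if sp.sec x = sp.sec (sp.pr _) then (1 : ℤˣ) else -1) = 1
  rw [if_pos]
  exact congrArg sp.sec (sp.pr_sec x).symm

theorem exists_character [Finite G] (sp : Split d) :
    ∃ T : G →* ℤˣ, T d.c = -1 ∧ (∀ a, T (d.ιL a) = Perm.sign a) ∧
      ∀ b, T (d.ι b) = Perm.sign b := by
  classical
  set C := Subgroup.centralizer ({d.c} : Set G) with hC
  haveI : C.FiniteIndex := inferInstance
  set T := MonoidHom.transfer sp.phi with hT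
  have hTc : T d.c = -1 := by
    haveI : Fintype (Quotient (MulAction.orbitRel (Subgroup.zpowers d.c) (G ⧸ C))) :=
      Fintype.ofFinite _
    rw [hT, MonoidHom.transfer_eq_prod_quotient_orbitRel_zpowers_quot]
    have hfix : d.c • ((1 : G) : G ⧸ C) = ((1 : G) : G ⧸ C) := by
      show ((d.c * 1 : G) : G ⧸ C) = _
      rw [mul_one, QuotientGroup.eq, mul_one, inv_mem_iff]
      exact Subgroup.mem_centralizer_singleton_iff.2 rfl
    set q₀ : Quotient (MulAction.orbitRel (Subgroup.zpowers d.c) (G ⧸ C)) :=
      Quotient.mk'' ((1 : G) : G ⧸ C) with hq₀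
    have hout : q₀.out = ((1 : G) : G ⧸ C) := by
      have h := Quotient.out_eq q₀
      have h' : q₀.out ∈ MulAction.orbit (Subgroup.zpowers d.c) (((1 : G) : G ⧸ C)) :=
        MulAction.orbitRel_apply.1 (Quotient.exact h)
      obtain ⟨⟨g, hg⟩, he⟩ := h'
      rw [← he]
      show g • ((1 : G) : G ⧸ C) = _
      exact (Subgroup.zpowers_le (H := MulAction.stabilizer G ((1 : G) : G ⧸ C))).2
        (MulAction.mem_stabilizer_iff.2 hfix) hg
    have val : ∀ (g : G) (hg : g⁻¹ * d.c * g ∈ C), g⁻¹ * d.c * g ≠ d.c →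
        sp.phi ⟨g⁻¹ * d.c * g, hg⟩ = 1 := by
      intro g hg hne
      have hfu : Fused d (g⁻¹ * d.c * g) := ⟨g⁻¹, by rw [inv_inv]⟩
      rcases sp.fused_cases hfu (Subgroup.mem_centralizer_singleton_iff.1 hg) with e | ⟨x, e⟩
      · exact absurd e hne
      · have hx : sp.sec x ∈ C := e ▸ hg
        rw [show (⟨g⁻¹ * d.c * g, hg⟩ : C) = ⟨sp.sec x, hx⟩ from Subtype.ext e, sp.phi_sec]
    rw [Finset.prod_eq_single q₀]
    · have hper : Function.minimalPeriod (d.c • ·) q₀.out = 1 := by
        rw [Function.minimalPeriod_eq_one_iff_isFixedPt, hout]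
        exact hfix
      have hmem : q₀.out.out ∈ C := by
        have := QuotientGroup.out_eq' q₀.out
        conv_rhs at this => rw [hout]
        have h2 := (QuotientGroup.eq (s := C)).1 this
        rwa [mul_one, inv_mem_iff] at h2
      rw [← sp.phi_c]
      refine congrArg sp.phi (Subtype.ext ?_)
      show q₀.out.out⁻¹ * d.c ^ Function.minimalPeriod (d.c • ·) q₀.out * q₀.out.out = d.c
      rw [hper, pow_one, mul_assoc, ← Subgroup.mem_centralizer_singleton_iff.1 hmem,
        inv_mul_cancel_left]
    · intro q _ hq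
      set g := q.out.out with hgdef
      have hdvd : Function.minimalPeriod (d.c • ·) q.out ∣ 2 := by
        refine Function.IsPeriodicPt.minimalPeriod_dvd ?_
        show d.c • d.c • q.out = q.out
        rw [smul_smul, c_sq, one_smul]
      rcases (Nat.dvd_prime Nat.prime_two).1 hdvd with h | h
      · have hmem : g⁻¹ * d.c * g ∈ C := by
          have := QuotientGroup.out_conj_pow_minimalPeriod_mem C d.c q.out
          rwa [h, pow_one] at this
        rw [← val g hmem ?_]
        · refine congrArg sp.phi (Subtype.ext ?_)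
          show g⁻¹ * d.c ^ Function.minimalPeriod (d.c • ·) q.out * g = _
          rw [h, pow_one]
        · intro e
          apply hq
          have hgC : g ∈ C := Subgroup.mem_centralizer_singleton_iff.2 (by
            calc g * d.c = g * (g⁻¹ * d.c * g) := by rw [e]
              _ = d.c * g := by group)
          have : q.out = ((1 : G) : G ⧸ C) := by
            rw [← QuotientGroup.out_eq' q.out, QuotientGroup.eq, mul_one, inv_mem_iff]
            exact hgC
          rw [← Quotient.out_eq q, this]
      · rw [← map_one sp.phi]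
        refine congrArg sp.phi (Subtype.ext ?_)
        show g⁻¹ * d.c ^ Function.minimalPeriod (d.c • ·) q.out * g = 1
        rw [h, pow_two, c_sq, mul_one, inv_mul_cancel]
    · intro h
      exact absurd (Finset.mem_univ _) h
  have hfused : ∀ w, Fused d w → T w = -1 := by
    rintro w ⟨h, rfl⟩
    rw [map_mul, map_mul, map_inv, hTc, mul_inv_cancel_comm]
  refine ⟨T, hTc, fun a => ?_, fun b => ?_⟩
  · exact hom_eq_sign (T.comp d.ιL) (a := 0) (b := 1) (by decide) (hfused _ sp.fused_s) a
  · exact hom_eq_sign (T.comp d.ι) (a := 0) (b := 1) (by decide) (hfused _ (fused_s' d)) b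

end Split

end Cfsg.Agent.H91.SymEight
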